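import Mathlib
import Cfsg.Agent.Ch.FrobeniusCount

/-!
# Solutions of `x ^ n = 1` in a coset of a normal subgroup (P. Hall)
-/

set_option autoImplicit false

namespace Cfsg.Agent.Zm

open MulAction Cfsg.Agent.Ch

variable {G : Type*} [Group G]

theorem card_dvd_card_of_stable [Finite G] (H : Subgroup G) {n : ℕ} (hn : Nat.card H ∣ n)
    (T : Set G) (hT1 : ∀ h ∈ H, ∀ x ∈ T, h * x * h⁻¹ ∈ T) (hT2 : ∀ x ∈ T, ∀ h ∈ H, x * h ∈ T) :
    Nat.card H ∣ Nat.card {x : G // x ^ n = 1 ∧ x ∈ T} := by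
  let _ := frobTailAction H
  let tail : G → FrobTail H := fun x => (1, fun k => ((x ^ k : G) : G ⧸ H))
  have hsm : ∀ (h : H) (x : G), h • tail x = tail (h * x * (h : G)⁻¹) := by
    intro h x
    refine Prod.ext (by change (h : G) * 1 * (h : G)⁻¹ = 1; simp) (funext fun k => ?_)
    change (h : G) • ((x ^ k : G) : G ⧸ H) = (((h * x * (h : G)⁻¹) ^ k : G) : G ⧸ H)
    rw [conj_pow, MulAction.Quotient.smul_coe, smul_eq_mul, QuotientGroup.eq]
    simp [mul_assoc]
  have htail : ∀ x y : G, tail y = tail x ↔ ∀ k : ℕ, (y ^ k)⁻¹ * x ^ k ∈ H := by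
    intro x y
    refine Prod.ext_iff.trans ((and_iff_right rfl).trans
      (funext_iff.trans (forall_congr' fun k => ?_)))
    exact QuotientGroup.eq
  refine card_dvd_card_of_fibers (fun x : {x : G // x ^ n = 1 ∧ x ∈ T} => tail x)
    (fun h x => ?_) fun x => ?_
  · refine Nat.card_congr ⟨fun y => ⟨⟨(h : G)⁻¹ * y.1 * ((h : G)⁻¹)⁻¹, ?_⟩, ?_⟩,
      fun y => ⟨⟨h * y.1 * (h : G)⁻¹, ?_⟩, ?_⟩, fun y => ?_, fun y => ?_⟩
    · exact ⟨by rw [conj_pow, y.1.2.1]; simp, hT1 _ (H.inv_mem h.2) _ y.1.2.2⟩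
    · have := hsm h⁻¹ y.1
      rw [y.2, inv_smul_smul] at this
      exact this.symm
    · exact ⟨by rw [conj_pow, y.1.2.1]; simp, hT1 _ h.2 _ y.1.2.2⟩
    · rw [← hsm, y.2]
    · ext; simp [mul_assoc]
    · ext; simp [mul_assoc]
  · obtain ⟨x, hx, hxT⟩ := x
    let U : Subgroup G := (stabilizer H (tail x)).map H.subtype
    have hU : ∀ a, a ∈ U ↔ ∀ k : ℕ, (x ^ k)⁻¹ * a * x ^ k ∈ H := by
      intro a
      have key : ∀ h : H, h ∈ stabilizer H (tail x) ↔ ∀ k : ℕ, (x ^ k)⁻¹ * h * x ^ k ∈ H := by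
        intro h
        rw [mem_stabilizer_iff, hsm, eq_comm, htail]
        refine forall_congr' fun k => ?_
        rw [conj_pow, ← mul_assoc, ← mul_assoc, H.mul_mem_cancel_right (H.inv_mem h.2)]
      constructor
      · rintro ⟨h, hh, rfl⟩
        exact (key h).mp hh
      · intro ha
        have h0 : a ∈ H := by simpa using ha 0
        exact ⟨⟨a, h0⟩, (key _).mpr ha, rfl⟩
    have hUH : U ≤ H := Subgroup.map_subtype_le _
    have hnorm : ∀ a ∈ U, x⁻¹ * a * x ∈ U := by
      intro a ha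
      rw [hU] at ha ⊢
      intro k
      have := ha (k + 1)
      rw [pow_succ'] at this
      simpa [mul_assoc] using this
    have hcard : Nat.card (stabilizer H (tail x)) = Nat.card U :=
      (Subgroup.card_map_of_injective H.subtype_injective).symm
    have hpow : ∀ u ∈ U, (x * u) ^ n = 1 := fun u hu => by
      obtain ⟨a, -, h⟩ := exists_conj_mul_pow_card U hnorm hu
      obtain ⟨c, hc'⟩ := (Subgroup.card_dvd_of_le hUH).trans hn
      have h1 : (x * u) ^ n = a⁻¹ * x ^ n * a := by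
        rw [hc', pow_mul, h, pow_mul]
        simpa using (conj_pow (a := a⁻¹) (b := x ^ Nat.card U) (i := c))
      rw [h1, hx]; simp
    have hk : ∀ u ∈ U, ∀ k : ℕ, (x ^ k)⁻¹ * (x * u) ^ k ∈ U := by
      intro u hu k
      induction k with
      | zero => simp
      | succ k ih =>
        have := U.mul_mem (hnorm _ ih) hu
        rw [pow_succ, pow_succ]
        simpa [mul_assoc] using this
    rw [hcard]
    refine dvd_of_eq (Nat.card_congr ⟨fun u => ⟨⟨x * u, hpow u u.2, hT2 x hxT u (hUH u.2)⟩, ?_⟩,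
      fun y => ⟨x⁻¹ * y.1, ?_⟩, fun u => by simp, fun y => by ext; simp⟩)
    · rw [eq_comm, htail]
      exact fun k => hUH (hk u u.2 k)
    · have hy := (htail _ _).mp y.2.symm
      set z : G := y.1.1
      rw [hU]
      intro k
      have := H.mul_mem (hy (k + 1)) (H.inv_mem (hy k))
      rw [pow_succ' x, pow_succ' z] at this
      simpa [mul_assoc] using this

/-- **Hall's coset lemma**: the number of solutions of `x ^ n = 1` in a coset of a normal subgroup
`N` is a multiple of every common divisor of `n` and `|N|`. -/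
theorem dvd_card_coset [Finite G] (N : Subgroup G) [N.Normal] {d n : ℕ} (hd : d ∣ Nat.card N)
    (hn : d ∣ n) (c : G ⧸ N) : d ∣ Nat.card {x : G // x ^ n = 1 ∧ (x : G ⧸ N) = c} := by
  rw [Nat.dvd_iff_prime_pow_dvd_dvd]
  intro p k hp hpk
  have := Fact.mk hp
  obtain ⟨H, hH⟩ := Sylow.exists_subgroup_card_pow_prime p (hpk.trans hd)
  have hH' : Nat.card (H.map N.subtype) = p ^ k := by
    rw [Subgroup.card_map_of_injective (Subgroup.subtype_injective _), hH]
  have h1 : ∀ h ∈ H.map N.subtype, (h : G ⧸ N) = 1 := fun h hh =>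
    (QuotientGroup.eq_one_iff h).2 (Subgroup.map_subtype_le _ hh)
  rw [← hH']
  refine card_dvd_card_of_stable (G := G) _ (hH' ▸ hpk.trans hn) {x : G | (x : G ⧸ N) = c} ?_ ?_
  · intro h hh x hx
    simp only [Set.mem_ofPred_eq, QuotientGroup.mk_mul, QuotientGroup.mk_inv, h1 h hh] at hx ⊢
    simpa using hx
  · intro x hx h hh
    simp only [Set.mem_ofPred_eq, QuotientGroup.mk_mul, h1 h hh] at hx ⊢
    simpa using hx

end Cfsg.Agent.Zm
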