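import Mathlib
import Cfsg.Agent.Zm.Coset

/-!
# Frobenius' conjecture: reduction to simple groups (Zemlin)
-/

set_option autoImplicit false

namespace Cfsg.Agent.Zm

open Subgroup

universe u

/-- The number of solutions of `x ^ n = 1`. -/
noncomputable def L (G : Type*) [Group G] (n : ℕ) : ℕ := Nat.card {x : G // x ^ n = 1}

/-- Frobenius' conjecture for `G`. -/
def FC (G : Type*) [Group G] : Prop :=
  ∀ n, n ∣ Nat.card G → L G n = n → ∃ H : Subgroup G, (H : Set G) = {x : G | x ^ n = 1}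

/-- Frobenius' conjecture for all composition factors of `G`. -/
def Sec (G : Type u) [Group G] : Prop :=
  ∀ H : Subgroup G, H.IsSubnormal → ∀ (S : Type u) [Group S] (f : H →* S),
    Function.Surjective f → IsSimpleGroup S → FC S

variable {G : Type u} [Group G]

theorem L_congr {G' : Type*} [Group G'] (e : G ≃* G') (n : ℕ) : L G n = L G' n :=
  Nat.card_congr (e.toEquiv.subtypeEquiv fun x => by
    change x ^ n = 1 ↔ e x ^ n = 1
    rw [← map_pow, e.map_eq_one_iff])

theorem FC.of_equiv {G' : Type*} [Group G'] (e : G ≃* G') (h : FC G) : FC G' := fun n h1 h2 => by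
  obtain ⟨H, hH⟩ := h n (by rwa [Nat.card_congr e.toEquiv]) (by rwa [L_congr e])
  refine ⟨H.comap e.symm.toMonoidHom, Set.ext fun x => ?_⟩
  change e.symm x ∈ (H : Set G) ↔ x ^ n = 1
  rw [hH, Set.mem_ofPred_eq, ← map_pow, e.symm.map_eq_one_iff]

theorem L_pos [Finite G] (n : ℕ) : 0 < L G n :=
  haveI : Nonempty {x : G // x ^ n = 1} := ⟨⟨1, one_pow n⟩⟩
  Nat.card_pos

theorem L_eq_ncard (n : ℕ) : L G n = {x : G | x ^ n = 1}.ncard := rfl

theorem dvd_L [Finite G] {d n : ℕ} (h1 : d ∣ Nat.card G) (h2 : d ∣ n) : d ∣ L G n :=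
  Ch.dvd_card_pow_eq_one h1 h2

theorem Sec.sub (h : Sec G) (K : Subgroup G) [hK : K.Normal] : Sec K :=
  fun H hH S _ f hf hS =>
    h (H.map K.subtype) (hH.trans' hK.isSubnormal) S
      (f.comp (H.equivMapOfInjective K.subtype K.subtype_injective).symm.toMonoidHom)
      (hf.comp (MulEquiv.surjective _)) hS

theorem Sec.quot (h : Sec G) (K : Subgroup G) [K.Normal] : Sec (G ⧸ K) :=
  fun H hH S _ f hf hS =>
    h (H.comap (QuotientGroup.mk' K)) (hH.comap _) S
      (f.comp ((QuotientGroup.mk' K).subgroupComap H))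
      (hf.comp (MonoidHom.subgroupComap_surjective_of_surjective _ _
        (QuotientGroup.mk'_surjective K))) hS

theorem eq_of_le [Finite G] {n : ℕ} (hL : L G n = n) {H : Subgroup G} (hc : Nat.card H = n)
    (h : (H : Set G) ⊆ {x : G | x ^ n = 1} ∨ {x : G | x ^ n = 1} ⊆ H) :
    (H : Set G) = {x : G | x ^ n = 1} := by
  have e : (H : Set G).ncard = {x : G | x ^ n = 1}.ncard := hc.trans hL.symm
  rcases h with h | h
  · exact Set.eq_of_subset_of_ncard_le h e.ge
  · exact (Set.eq_of_subset_of_ncard_le h e.le).symm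

theorem count [Finite G] (N : Subgroup G) [N.Normal] {a b m : ℕ} (hN : Nat.card N = a * m)
    (hc : b.Coprime m) (hd : a * b ∣ Nat.card G) (hL : L G (a * b) = a * b) :
    b ∣ Nat.card (G ⧸ N) ∧ L (G ⧸ N) b = b ∧ L N a = a ∧
      ∀ x : G, x ^ (a * b) = 1 → (x : G ⧸ N) ^ b = 1 := by
  classical
  have := Fintype.ofFinite G
  have := Fintype.ofFinite (G ⧸ N)
  have ha : 0 < a := Nat.pos_of_mul_pos_right (hN ▸ Nat.card_pos)
  have h1 : b ∣ Nat.card (G ⧸ N) := by
    rw [card_eq_card_quotient_mul_card_subgroup N, hN, mul_left_comm] at hd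
    exact hc.dvd_of_dvd_mul_right (Nat.dvd_of_mul_dvd_mul_left ha hd)
  set S : Finset G := Finset.univ.filter fun x => x ^ (a * b) = 1 with hS
  set B : Finset (G ⧸ N) := Finset.univ.filter fun c => c ^ b = 1 with hB
  set I : Finset (G ⧸ N) := S.image QuotientGroup.mk with hI
  have hSc : S.card = a * b := by
    rw [← hL, L, Nat.card_eq_fintype_card, Fintype.card_subtype]
  have hBc : B.card = L (G ⧸ N) b := by
    rw [L, Nat.card_eq_fintype_card, Fintype.card_subtype]
  have hBI : B ⊆ I := fun c hc' => by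
    obtain ⟨x, rfl⟩ := QuotientGroup.mk_surjective c
    have h2 : (x : G ⧸ N) ^ b = 1 := by simpa [hB] using hc'
    have h3 : x ^ b ∈ N := by rwa [← QuotientGroup.mk_pow, QuotientGroup.eq_one_iff] at h2
    obtain ⟨k, h4, h5⟩ := Nat.chineseRemainder hc 1 0
    obtain ⟨j, rfl⟩ := (Nat.modEq_zero_iff_dvd).1 h5
    refine Finset.mem_image.2 ⟨x ^ (m * j), ?_, ?_⟩
    · have h6 : (x ^ b) ^ (a * m) = 1 := by
        have := congrArg Subtype.val (pow_card_eq_one' (x := (⟨x ^ b, h3⟩ : N)))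
        rw [hN] at this
        simpa using this
      simp only [hS, Finset.mem_filter, Finset.mem_univ, true_and]
      rw [← pow_mul, show m * j * (a * b) = b * (a * m) * j by ring, pow_mul, pow_mul, h6, one_pow]
    · rw [QuotientGroup.mk_pow]
      have h6 := pow_eq_pow_of_modEq h4 h2
      rwa [pow_one] at h6
  have hfib : ∀ c, (S.filter fun x : G => (x : G ⧸ N) = c).card =
      Nat.card {x : G // x ^ (a * b) = 1 ∧ (x : G ⧸ N) = c} := fun c => by
    rw [Nat.card_eq_fintype_card, Fintype.card_subtype, hS, Finset.filter_filter]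
  have hge : ∀ c ∈ I, a ≤ (S.filter fun x : G => (x : G ⧸ N) = c).card := fun c hc' => by
    refine Nat.le_of_dvd ?_ ?_
    · obtain ⟨x, hx, rfl⟩ := Finset.mem_image.1 hc'
      exact Finset.card_pos.2 ⟨x, Finset.mem_filter.2 ⟨hx, rfl⟩⟩
    · rw [hfib]
      exact dvd_card_coset N (hN ▸ dvd_mul_right a m) (dvd_mul_right a b) c
  have hsum : S.card = ∑ c ∈ I, (S.filter fun x : G => (x : G ⧸ N) = c).card :=
    Finset.card_eq_sum_card_image _ _
  have h2 : I.card * a ≤ a * b := by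
    rw [← hSc, hsum, ← smul_eq_mul]
    exact Finset.card_nsmul_le_sum _ _ _ hge
  have h3 : b ≤ B.card := hBc ▸ Nat.le_of_dvd (L_pos b) (dvd_L h1 dvd_rfl)
  have h4 : I.card ≤ b := by
    rw [mul_comm] at h2
    exact Nat.le_of_mul_le_mul_left h2 ha
  have h5 := Finset.card_le_card hBI
  have h6 : B = I := Finset.eq_of_subset_of_card_le hBI (by omega)
  refine ⟨h1, by omega, ?_, fun x hx => ?_⟩
  · have h7 : (1 : G ⧸ N) ∈ I := hBI (by simp [hB])
    have h8 := Finset.card_nsmul_le_sum (I.erase 1) _ a fun c hc' =>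
      hge c (Finset.mem_of_mem_erase hc')
    rw [← Finset.add_sum_erase _ _ h7, hSc] at hsum
    rw [Finset.card_erase_of_mem h7, smul_eq_mul, show I.card = b by omega] at h8
    have h9 := hge 1 h7
    have h10 : 0 < b := by
      have := Finset.card_pos.2 ⟨_, h7⟩
      omega
    have h11 : (S.filter fun x : G => (x : G ⧸ N) = 1).card = a := by
      obtain ⟨b, rfl⟩ : ∃ c, b = c + 1 := ⟨b - 1, by omega⟩
      rw [Nat.add_sub_cancel, mul_comm] at h8
      rw [mul_add, mul_one] at hsum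
      omega
    rw [hfib] at h11
    have k1 : ∀ x : N, x ^ a = 1 → (x : G) ^ (a * b) = 1 := fun x hx => by
      rw [pow_mul, ← coe_pow, hx, coe_one, one_pow]
    have k2 : ∀ x : N, (x : G) ^ (a * b) = 1 → x ^ a = 1 := fun x hx => by
      have e1 : x ^ (a * b) = 1 := Subtype.ext hx
      have e2 := pow_card_eq_one' (x := x)
      rw [hN] at e2
      have e3 := pow_gcd_eq_one.2 ⟨e1, e2⟩
      rwa [Nat.gcd_mul_left, hc, mul_one] at e3
    exact Eq.trans (Nat.card_congr ⟨fun x => ⟨x.1, k1 _ x.2, (QuotientGroup.eq_one_iff _).2 x.1.2⟩,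
      fun x => ⟨⟨x.1, (QuotientGroup.eq_one_iff _).1 x.2.2⟩, k2 _ x.2.1⟩,
      fun _ => rfl, fun _ => rfl⟩) h11
  · have : (x : G ⧸ N) ∈ B := h6 ▸ Finset.mem_image_of_mem _ (by simpa [hS] using hx)
    simpa [hB] using this

theorem normal_of_eq {n : ℕ} {H : Subgroup G} (h : (H : Set G) = {x : G | x ^ n = 1}) :
    H.Normal := ⟨fun x hx g => by
  have h1 : x ∈ (H : Set G) := hx
  change g * x * g⁻¹ ∈ (H : Set G)
  rw [h] at h1 ⊢
  rw [Set.mem_ofPred_eq, conj_pow, h1]; simp⟩

theorem card_of_eq {n : ℕ} {H : Subgroup G} (h : (H : Set G) = {x : G | x ^ n = 1}) :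
    Nat.card H = L G n := by
  rw [L_eq_ncard, ← h]; rfl

theorem card_comap_mk (N : Subgroup G) [N.Normal] (K : Subgroup (G ⧸ N)) :
    Nat.card (K.comap (QuotientGroup.mk' N)) = Nat.card K * Nat.card N := by
  rw [mul_comm, ← Nat.card_prod]
  exact Nat.card_congr (QuotientGroup.preimageMkEquivSubgroupProdSet N (K : Set (G ⧸ N)))

theorem fc_of_sec (k : ℕ) : ∀ (G : Type u) [Group G] [Finite G], Nat.card G = k → Sec G → FC G := by
  induction k using Nat.strong_induction_on with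
  | _ k ih =>
  intro G _ _ hk hS n hn hL
  have quo : ∀ (N : Subgroup G) [N.Normal], N ≠ ⊥ → FC (G ⧸ N) := fun N _ h0 =>
    ih _ (by
      have h1 := card_eq_card_quotient_mul_card_subgroup N
      have h2 := (one_lt_card_iff_ne_bot N).2 h0
      have h3 : 0 < Nat.card (G ⧸ N) := Nat.card_pos
      nlinarith) _ rfl (hS.quot N)
  have sub : ∀ (N : Subgroup G) [N.Normal], N ≠ ⊤ → FC N := fun N _ h0 =>
    ih _ (hk ▸ lt_of_le_of_ne (card_le_card_group N) fun h => h0 (eq_top_of_card_eq N h)) _ rfl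
      (hS.sub N)
  rcases subsingleton_or_nontrivial G with h | h
  · exact ⟨⊤, Set.ext fun x => by simp [Subsingleton.elim x 1]⟩
  by_cases hs : IsSimpleGroup G
  · exact hS ⊤ .top G (Subgroup.subtype ⊤) (fun x => ⟨⟨x, mem_top x⟩, rfl⟩) hs n hn hL
  obtain ⟨N, hN, h0, h1⟩ : ∃ N : Subgroup G, N.Normal ∧ N ≠ ⊥ ∧ N ≠ ⊤ := by
    by_contra hc
    push Not at hc
    exact hs ⟨fun N hN => or_iff_not_imp_left.2 (hc N hN)⟩
  obtain ⟨b, m, hc, e1, e2⟩ := Nat.exists_coprime n (Nat.card N)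
  set a := n.gcd (Nat.card N)
  rw [mul_comm] at e1 e2
  clear_value a
  subst e1
  obtain ⟨c1, c2, c3, c4⟩ := count N e2 hc hn hL
  obtain ⟨K, hK⟩ := quo N h0 b c1 c2
  have := normal_of_eq hK
  have hKc : Nat.card (K.comap (QuotientGroup.mk' N)) = b * (a * m) := by
    rw [card_comap_mk, card_of_eq hK, c2, e2]
  have hmem : ∀ x : G, x ^ (a * b) = 1 → x ∈ K.comap (QuotientGroup.mk' N) := fun x hx => by
    change (x : G ⧸ N) ∈ (K : Set (G ⧸ N))
    rw [hK]; exact c4 x hx
  by_cases h2 : K.comap (QuotientGroup.mk' N) = ⊤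
  · obtain ⟨A, hA⟩ := sub N h1 a (e2 ▸ dvd_mul_right a m) c3
    have hAm : ∀ x, x ∈ A.map N.subtype ↔ x ∈ N ∧ x ^ a = 1 := fun x =>
      ⟨by
        rintro ⟨y, hy, rfl⟩
        have h3 : y ∈ (A : Set N) := hy
        rw [hA] at h3
        exact ⟨y.2, congrArg Subtype.val h3⟩,
      fun h3 => ⟨⟨x, h3.1⟩, by
        rw [hA]; exact Subtype.ext h3.2, rfl⟩⟩
    have hAn : (A.map N.subtype).Normal := ⟨fun x hx g => by
      rw [hAm] at hx ⊢
      exact ⟨hN.conj_mem _ hx.1 g, by rw [conj_pow, hx.2]; simp⟩⟩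
    have hAc : Nat.card (A.map N.subtype) = a * 1 := by
      rw [card_map_of_injective N.subtype_injective, card_of_eq hA, c3, mul_one]
    by_cases h3 : A.map N.subtype = ⊥
    · rw [h3, card_bot, mul_one] at hAc
      subst hAc
      rw [h2, card_top, card_eq_card_quotient_mul_card_subgroup N, e2] at hKc
      have h4 : Nat.card (G ⧸ N) = b := Nat.eq_of_mul_eq_mul_right (e2 ▸ Nat.card_pos) hKc
      obtain ⟨H, hH⟩ := exists_right_complement'_of_coprime (N := N)
        (by rw [e2, one_mul, index_eq_card, h4]; exact hc.symm)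
      have h5 : Nat.card H = 1 * b := by
        rw [one_mul, ← h4, ← index_eq_card, hH.symm.index_eq_card]
      refine ⟨H, eq_of_le hL h5 (Or.inl fun x hx => ?_)⟩
      have := congrArg Subtype.val (pow_card_eq_one' (x := (⟨x, hx⟩ : H)))
      rw [h5] at this
      exact this
    · obtain ⟨d1, d2, -, d4⟩ := count (A.map N.subtype) hAc (Nat.coprime_one_right b) hn hL
      obtain ⟨B, hB⟩ := quo _ h3 b d1 d2
      refine ⟨B.comap (QuotientGroup.mk' _), eq_of_le hL ?_ (Or.inr fun x hx => ?_)⟩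
      · rw [card_comap_mk, card_of_eq hB, d2, hAc, mul_one, mul_comm]
      · change (x : G ⧸ A.map N.subtype) ∈ (B : Set _)
        rw [hB]; exact d4 x hx
  · obtain ⟨H, hH⟩ := sub _ h2 (a * b) (hKc ▸ ⟨m, by ring⟩) (by
      refine Eq.trans ?_ hL
      exact Nat.card_congr ⟨fun x => ⟨x.1, congrArg Subtype.val x.2⟩,
        fun x => ⟨⟨x.1, hmem _ x.2⟩, Subtype.ext x.2⟩, fun _ => rfl, fun _ => rfl⟩)
    refine ⟨H.map (Subgroup.subtype _), Set.ext fun x => ⟨?_, fun hx => ⟨⟨x, hmem x hx⟩, ?_, rfl⟩⟩⟩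
    · rintro ⟨y, hy, rfl⟩
      have h3 : y ∈ (H : Set (K.comap (QuotientGroup.mk' N))) := hy
      rw [hH] at h3
      exact congrArg Subtype.val h3
    · rw [hH]; exact Subtype.ext hx

end Cfsg.Agent.Zm
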